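import Mathlib

/-! # S3206, part Form: a `y`-invariant alternating biadditive form on `E₈` vanishes when `y` is a `7`-cycle. -/

set_option autoImplicit false
set_option linter.style.haveILetI false

namespace Cfsg.Agent.Lib.JR.Form

/-- [F] `u_i = yⁱ u`, `i : ℕ`, `u_{i+7} = u_i`. `u₀ u₁ = u_j` for some `j ∈ {2,…,6}`, so `u_i u_{i+1} = u_{i+j}` for all `i`. `d n := c u₀ u_n`: `d 0 = 1`, `d (7 - n) = d n` (`c u_a u_b = d (b - a)`, exponent `2`),
`d (i + j) = d i * d (i + 1)`. Each `j` gives `d 1 = d 2 = d 3 = 1` from `i = 0, 1, 2, 3`. All `c u_a u_b = 1`, and every element `≠ 1` is some `u_a`. -/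
theorem form_zero {S A : Type*} [CommGroup S] [CommGroup A] (h2 : ∀ s : S, s * s = 1) (h8 : Nat.card S = 8)
    (y : S →* S) (hy7 : ∀ s, y^[7] s = s)
    (hyt : ∀ s s' : S, s ≠ 1 → s' ≠ 1 → ∃ i : ℕ, y^[i] s = s')
    (c : S → S → A) (hadd1 : ∀ u v w, c (u * v) w = c u w * c v w) (hadd2 : ∀ u v w, c w (u * v) = c w u * c w v)
    (hself : ∀ u, c u u = 1) (hinv : ∀ u v, c (y u) (y v) = c u v) : ∀ u v, c u v = 1 := by
  classical
  haveI : Finite S := Nat.finite_of_card_ne_zero (by rw [h8]; norm_num)
  haveI : Fintype S := Fintype.ofFinite S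
  have hl1 : ∀ v, c 1 v = 1 := fun v => by
    have := hadd1 1 1 v
    rw [mul_one] at this
    exact mul_eq_left.1 this.symm
  have hr1 : ∀ v, c v 1 = 1 := fun v => by
    have := hadd2 1 1 v
    rw [mul_one] at this
    exact mul_eq_left.1 this.symm
  have hexp : ∀ u v, c u v * c u v = 1 := fun u v => by
    rw [← hadd1, h2, hl1]
  have hsymm : ∀ u v, c v u = c u v := fun u v => by
    have h := hself (u * v)
    rw [hadd1, hadd2, hadd2, hself, hself, one_mul, mul_one] at h
    have h3 := hexp u v
    calc c v u = c u v * c u v * c v u := by rw [h3, one_mul]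
      _ = c u v * (c u v * c v u) := by rw [mul_assoc]
      _ = c u v := by rw [h, mul_one]
  -- a non-trivial element
  by_cases hS : ∃ u₀ : S, u₀ ≠ 1
  swap
  · push Not at hS
    intro u v
    rw [hS u, hl1]
  obtain ⟨u₀, hu₀⟩ := hS
  let u : ℕ → S := fun i => y^[i] u₀
  have hu0 : u 0 = u₀ := rfl
  have husucc : ∀ i, u (i + 1) = y (u i) := fun i => Function.iterate_succ_apply' y i u₀
  have hiter1 : ∀ (i : ℕ) (a b : S), y^[i] (a * b) = y^[i] a * y^[i] b := fun i a b => iterate_map_mul y i a b
  have hadds : ∀ i j, y^[i] (u j) = u (i + j) := fun i j => by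
    change y^[i] (y^[j] u₀) = y^[i + j] u₀
    rw [Function.iterate_add_apply]
  have hu7 : ∀ i, u (i + 7) = u i := fun i => by
    change y^[i + 7] u₀ = y^[i] u₀
    rw [Function.iterate_add_apply, hy7]
  have hmod : ∀ i, u i = u (i % 7) := fun i => by
    induction i using Nat.strong_induction_on with
    | _ i ih =>
      by_cases hi : i < 7
      · rw [Nat.mod_eq_of_lt hi]
      · obtain ⟨k, rfl⟩ : ∃ k, i = k + 7 := ⟨i - 7, by omega⟩
        rw [hu7, ih k (by omega)]
        congr 1
        omega
  have hyne : ∀ s, y s = 1 → s = 1 := fun s hs => by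
    have h6 : y^[7] s = y^[6] (y s) := rfl
    rw [← hy7 s, h6, hs]
    exact iterate_map_one y 6
  have hune : ∀ i, u i ≠ 1 := by
    intro i
    induction i with
    | zero => exact hu₀
    | succ i ih =>
      rw [husucc]
      exact fun h => ih (hyne _ h)
  have hall : ∀ s, s ≠ 1 → ∃ i, u i = s := fun s hs => hyt u₀ s hu₀ hs
  -- `u 0 * u 1 ≠ 1`
  have hr : u 0 * u 1 ≠ 1 := by
    intro h
    have h01 : u 1 = u 0 := by
      have h3 : u 0 * u 0 = 1 := h2 _
      exact mul_left_cancel (h.trans h3.symm)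
    have hconst : ∀ i, u i = u 0 := by
      intro i
      induction i with
      | zero => rfl
      | succ i ih =>
        rw [husucc, ih]
        have := husucc 0
        rw [zero_add] at this
        rw [← this, h01]
    have hsub : ∀ s : S, s = 1 ∨ s = u 0 := fun s => by
      by_cases hs : s = 1
      · exact Or.inl hs
      · obtain ⟨i, hi⟩ := hall s hs
        exact Or.inr (by rw [← hi, hconst])
    have hle : (Finset.univ : Finset S) ⊆ {1, u 0} := fun s _ => by
      rcases hsub s with h | h <;> simp [h]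
    have h1 := Finset.card_le_card hle
    have h3 : ({1, u 0} : Finset S).card ≤ 2 := Finset.card_le_two
    rw [Finset.card_univ, ← Nat.card_eq_fintype_card, h8] at h1
    omega
  obtain ⟨j₀, hj₀⟩ := hall _ hr
  set j := j₀ % 7 with hjdef
  have hj : u j = u 0 * u 1 := by rw [← hj₀, hmod j₀]
  have hj7 : j < 7 := Nat.mod_lt _ (by norm_num)
  have hj0 : j ≠ 0 := by
    intro h
    rw [h] at hj
    exact hune 1 (by
      have : u 0 * u 1 = u 0 * 1 := by rw [← hj, mul_one]
      exact mul_left_cancel this)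
  have hj1 : j ≠ 1 := by
    intro h
    rw [h] at hj
    exact hune 0 (by
      have : u 0 * u 1 = 1 * u 1 := by rw [← hj, one_mul]
      exact mul_right_cancel this)
  -- shifting
  have hshift : ∀ i, u i * u (i + 1) = u (i + j) := fun i => by
    have h := congrArg (y^[i]) hj
    rw [hiter1, hadds, hadds, hadds, add_zero] at h
    exact h.symm
  have hinvk : ∀ (i a b : ℕ), c (u (a + i)) (u (b + i)) = c (u a) (u b) := by
    intro i a b
    induction i with
    | zero => rfl
    | succ i ih =>
      rw [← add_assoc, ← add_assoc, husucc, husucc, hinv, ih]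
  let d : ℕ → A := fun n => c (u 0) (u n)
  have hd0 : d 0 = 1 := hself _
  have hdd : ∀ a b, a ≤ b → c (u a) (u b) = d (b - a) := fun a b hab => by
    have := hinvk a 0 (b - a)
    rw [zero_add, Nat.sub_add_cancel hab] at this
    exact this
  have hrec : ∀ i, d (i + j) = d i * d (i + 1) := fun i => by
    change c (u 0) (u (i + j)) = c (u 0) (u i) * c (u 0) (u (i + 1))
    rw [← hshift, hadd2]
  have hd7 : ∀ n, d (n + 7) = d n := fun n => by
    change c (u 0) (u (n + 7)) = c (u 0) (u n)
    rw [hu7]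
  have hdsymm : ∀ n, n ≤ 7 → d (7 - n) = d n := fun n hn => by
    have h1 := hdd n 7 hn
    have h3 : u 7 = u 0 := by simpa using hu7 0
    rw [h3, hsymm (u 0) (u n)] at h1
    exact h1.symm
  have hd4 : d 4 = d 3 := hdsymm 3 (by norm_num)
  have hd5 : d 5 = d 2 := hdsymm 2 (by norm_num)
  have hd6 : d 6 = d 1 := hdsymm 1 (by norm_num)
  have hdd7 : d 7 = 1 := by rw [← hd0]; simpa using hd7 0
  have hd8 : d 8 = d 1 := hd7 1
  have hd9 : d 9 = d 2 := hd7 2
  have hx : ∀ n, d n * d n = 1 := fun n => hexp _ _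
  have key : d 1 = 1 ∧ d 2 = 1 ∧ d 3 = 1 := by
    have hjc : j = 2 ∨ j = 3 ∨ j = 4 ∨ j = 5 ∨ j = 6 := by omega
    rcases hjc with hjv | hjv | hjv | hjv | hjv
    · have e0 : d 2 = d 0 * d 1 := by have := hrec 0; rw [hjv] at this; exact this
      have e1 : d 3 = d 1 * d 2 := by have := hrec 1; rw [hjv] at this; exact this
      have e2 : d 4 = d 2 * d 3 := by have := hrec 2; rw [hjv] at this; exact this
      rw [hd0, one_mul] at e0
      rw [e0, hx] at e1
      rw [hd4, e0, e1, mul_one] at e2
      rw [e0]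
      exact ⟨e2.symm, e2.symm, e1⟩
    · have e0 : d 3 = d 0 * d 1 := by have := hrec 0; rw [hjv] at this; exact this
      have e1 : d 4 = d 1 * d 2 := by have := hrec 1; rw [hjv] at this; exact this
      have e2 : d 5 = d 2 * d 3 := by have := hrec 2; rw [hjv] at this; exact this
      rw [hd0, one_mul] at e0
      rw [hd4, e0] at e1
      have h22 : d 2 = 1 := mul_eq_left.1 e1.symm
      rw [hd5] at e2
      have h33 : d 3 = 1 := mul_eq_left.1 e2.symm
      exact ⟨by rw [← e0, h33], h22, h33⟩
    · have e0 : d 4 = d 0 * d 1 := by have := hrec 0; rw [hjv] at this; exact this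
      have e1 : d 5 = d 1 * d 2 := by have := hrec 1; rw [hjv] at this; exact this
      have e2 : d 6 = d 2 * d 3 := by have := hrec 2; rw [hjv] at this; exact this
      rw [hd0, one_mul, hd4] at e0
      rw [hd5] at e1
      have h11 : d 1 = 1 := mul_eq_right.1 e1.symm
      have h33 : d 3 = 1 := by rw [e0, h11]
      rw [hd6, h11, h33, mul_one] at e2
      exact ⟨h11, e2.symm, h33⟩
    · have e0 : d 5 = d 0 * d 1 := by have := hrec 0; rw [hjv] at this; exact this
      have e1 : d 6 = d 1 * d 2 := by have := hrec 1; rw [hjv] at this; exact this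
      have e2 : d 7 = d 2 * d 3 := by have := hrec 2; rw [hjv] at this; exact this
      rw [hd0, one_mul, hd5] at e0
      rw [hd6] at e1
      have h22 : d 2 = 1 := mul_eq_left.1 e1.symm
      have h11 : d 1 = 1 := by rw [← e0, h22]
      rw [hdd7, h22, one_mul] at e2
      exact ⟨h11, h22, e2.symm⟩
    · have e1 : d 7 = d 1 * d 2 := by have := hrec 1; rw [hjv] at this; exact this
      have e2 : d 8 = d 2 * d 3 := by have := hrec 2; rw [hjv] at this; exact this
      have e3 : d 9 = d 3 * d 4 := by have := hrec 3; rw [hjv] at this; exact this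
      rw [hd9, hd4, hx] at e3
      rw [hdd7, e3, mul_one] at e1
      rw [hd8, e1.symm, e3, one_mul] at e2
      exact ⟨e1.symm, e3, e2.symm⟩
  obtain ⟨h1d, h2d, h3d⟩ := key
  have hdall : ∀ n, d n = 1 := by
    intro n
    have h5 : d n = d (n % 7) := by
      change c (u 0) (u n) = c (u 0) (u (n % 7))
      rw [← hmod]
    have hlt : n % 7 < 7 := Nat.mod_lt _ (by norm_num)
    rw [h5]
    generalize n % 7 = m at hlt
    interval_cases m
    · exact hd0
    · exact h1d
    · exact h2d
    · exact h3d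
    · rw [hd4, h3d]
    · rw [hd5, h2d]
    · rw [hd6, h1d]
  intro a b
  by_cases ha : a = 1
  · rw [ha, hl1]
  by_cases hb : b = 1
  · rw [hb, hr1]
  obtain ⟨i, rfl⟩ := hall a ha
  obtain ⟨k, rfl⟩ := hall b hb
  rcases le_total i k with hik | hik
  · rw [hdd i k hik, hdall]
  · rw [hsymm (u k) (u i), hdd k i hik, hdall]

end Cfsg.Agent.Lib.JR.Form
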