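import Mathlib
import Cfsg.Agent.Lib.ZStar.Main
import Cfsg.Agent.Lib.Involutions2.KleinSylow

set_option autoImplicit false

namespace Cfsg.Agent.Lib.JR.ZAux

open Cfsg Subgroup

universe u

/-- The norm over the cosets of a subgroup acting trivially. -/
theorem norm_aux {N A B : Type*} [Group N] [CommGroup A] [CommGroup B] [Finite N] (H : Subgroup N)
    (ρ : N → A →* A) (hmul : ∀ m n a, ρ (m * n) a = ρ m (ρ n a)) (hH : ∀ h ∈ H, ∀ a, ρ h a = a)
    (a : A) (ψ : A →* B) (hψ : ∀ m c, ψ (ρ m c) = ψ c) :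
    ∃ b : A, (∀ m, ρ m b = b) ∧ ψ b = ψ a ^ H.index := by
  classical
  haveI : Fintype (N ⧸ H) := Fintype.ofFinite _
  refine ⟨∏ q : N ⧸ H, ρ (Quotient.out q) a, fun m => ?_, ?_⟩
  · rw [map_prod]
    have key : ∀ q : N ⧸ H, ρ m (ρ (Quotient.out q) a) = ρ (Quotient.out (m • q)) a := by
      intro q
      rw [← hmul]
      have h1 : ((Quotient.out (m • q) : N) : N ⧸ H) = ((m * Quotient.out q : N) : N ⧸ H) := by
        rw [QuotientGroup.out_eq']
        conv_lhs => rw [← QuotientGroup.out_eq' q]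
        rfl
      have h2 := QuotientGroup.eq.1 h1
      have h3 : m * Quotient.out q = Quotient.out (m • q) * ((Quotient.out (m • q))⁻¹ * (m * Quotient.out q)) := by
        group
      rw [h3, hmul, hH _ h2]
    rw [Finset.prod_congr rfl (fun q _ => key q)]
    exact Equiv.prod_comp (MulAction.toPerm m) (fun q : N ⧸ H => ρ (Quotient.out q) a)
  · rw [map_prod]
    simp only [hψ]
    rw [Finset.prod_const, Finset.card_univ, ← Nat.card_eq_fintype_card]
    rfl

variable {Γ : Type u} [Group Γ] [Finite Γ]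

theorem isolated_of_fixed' (T : Sylow 2 Γ) (hab : ∀ x ∈ (T : Subgroup Γ), ∀ y ∈ (T : Subgroup Γ), x * y = y * x) {f : Γ}
    (hfT : f ∈ (T : Subgroup Γ)) (hf : orderOf f = 2)
    (hM : ∀ n ∈ normalizer ((T : Subgroup Γ) : Set Γ), n * f * n⁻¹ = f) : Cfsg.IsIsolatedInvolution f := by
  refine ⟨hf, fun g hg => ?_⟩
  set z := g * f * g⁻¹ with hz
  have hz2 : orderOf z = 2 := by
    rw [hz, ← hf]
    have := MulEquiv.orderOf_eq (MulAut.conj g) f
    simpa [MulAut.conj_apply] using this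
  have hpf : IsPGroup 2 (zpowers f) :=
    IsPGroup.of_card (n := 1) (by rw [Nat.card_zpowers, hf]; norm_num)
  have hpz : IsPGroup 2 (zpowers z) :=
    IsPGroup.of_card (n := 1) (by rw [Nat.card_zpowers, hz2]; norm_num)
  have hzz : ∀ x ∈ zpowers z, f * x = x * f := by
    rintro _ ⟨k, rfl⟩
    exact (Commute.zpow_right hg k).eq
  have hle : zpowers f ≤ normalizer ((zpowers z : Subgroup Γ) : Set Γ) := by
    rw [zpowers_le, mem_normalizer_iff]
    intro x
    constructor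
    · intro hx
      have : f * x * f⁻¹ = x := by rw [hzz x hx]; group
      rw [this]; exact hx
    · intro hx
      have h1 := hzz _ hx
      have : f * x * f⁻¹ = x := by
        have h2 : f * (f * x * f⁻¹) * f⁻¹ = f * x * f⁻¹ := by rw [h1]; group
        exact mul_left_cancel (mul_right_cancel h2)
      rw [← this]; exact hx
  have hsup := IsPGroup.to_sup_of_normal_right' hpf hpz hle
  obtain ⟨Q, hQ⟩ := IsPGroup.exists_le_sylow hsup
  obtain ⟨h, hh⟩ := MulAction.exists_smul_eq Γ Q T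
  have hmem : ∀ x : Γ, x ∈ (Q : Subgroup Γ) → h * x * h⁻¹ ∈ (T : Subgroup Γ) := by
    intro x hx
    rw [← hh, Sylow.coe_subgroup_smul]
    exact ⟨x, hx, by simp [MulAut.conj_apply]⟩
  have hfQ : f ∈ (Q : Subgroup Γ) := hQ (Subgroup.mem_sup_left (mem_zpowers f))
  have hzQ : z ∈ (Q : Subgroup Γ) := hQ (Subgroup.mem_sup_right (mem_zpowers z))
  obtain ⟨n1, hn1, e1⟩ := Cfsg.Agent.Lib.Involutions2.KleinSylow.exists_normalizer_conj T hab hfT (hmem f hfQ) (g := h) rfl
  obtain ⟨n2, hn2, e2⟩ := Cfsg.Agent.Lib.Involutions2.KleinSylow.exists_normalizer_conj T hab hfT (hmem z hzQ) (g := h * g)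
    (by rw [hz]; group)
  rw [hM n1 hn1] at e1
  rw [hM n2 hn2] at e2
  have : h * z * h⁻¹ = h * f * h⁻¹ := by rw [← e1, ← e2]
  exact mul_left_cancel (mul_right_cancel this)

theorem exists_fixed' (T : Sylow 2 Γ) (hab : ∀ x ∈ (T : Subgroup Γ), ∀ y ∈ (T : Subgroup Γ), x * y = y * x)
    (K : Subgroup Γ) [K.Normal] (hcomm : ∀ a b : Γ, a * b * a⁻¹ * b⁻¹ ∈ K) (hT : ¬ (T : Subgroup Γ) ≤ K) :
    ∃ f ∈ (T : Subgroup Γ), orderOf f = 2 ∧ ∀ n ∈ normalizer ((T : Subgroup Γ) : Set Γ), n * f * n⁻¹ = f := by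
  classical
  letI : CommGroup (T : Subgroup Γ) :=
    { (inferInstance : Group (T : Subgroup Γ)) with
      mul_comm := fun a b => Subtype.ext (hab a a.2 b b.2) }
  obtain ⟨x, hxT, hxK⟩ := SetLike.not_le_iff_exists.1 hT
  let N : Subgroup Γ := normalizer ((T : Subgroup Γ) : Set Γ)
  have hmemN : ∀ (m : N) (t : (T : Subgroup Γ)), (m : Γ) * t * (m : Γ)⁻¹ ∈ (T : Subgroup Γ) := fun m t =>
    (mem_normalizer_iff.1 m.2 t).1 t.2
  let ρ : N → (T : Subgroup Γ) →* (T : Subgroup Γ) := fun m =>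
    { toFun := fun t => ⟨(m : Γ) * t * (m : Γ)⁻¹, hmemN m t⟩
      map_one' := Subtype.ext (by simp)
      map_mul' := fun a b => Subtype.ext (by simp only [Subgroup.coe_mul]; group) }
  have hρ : ∀ m t, ((ρ m t : (T : Subgroup Γ)) : Γ) = (m : Γ) * t * (m : Γ)⁻¹ := fun _ _ => rfl
  let H : Subgroup N := (T : Subgroup Γ).subgroupOf N
  let ψ : (T : Subgroup Γ) →* ((T : Subgroup Γ) ⧸ K.subgroupOf (T : Subgroup Γ)) :=
    QuotientGroup.mk' (K.subgroupOf (T : Subgroup Γ))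
  have hψ : ∀ m c, ψ (ρ m c) = ψ c := by
    intro m c
    apply QuotientGroup.eq.2
    rw [Subgroup.mem_subgroupOf]
    have := hcomm ((m : Γ)) ((c : Γ)⁻¹)
    simp only [Subgroup.coe_mul, Subgroup.coe_inv, hρ]
    convert this using 1
    group
  obtain ⟨b, hb1, hb2⟩ := norm_aux H ρ (fun m n a => Subtype.ext (by simp only [hρ, Subgroup.coe_mul]; group))
    (fun h hh a => Subtype.ext (by
      rw [hρ]
      have := hab _ (Subgroup.mem_subgroupOf.1 hh) _ a.2
      rw [this]; group)) ⟨x, hxT⟩ ψ hψ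
  -- the index is odd
  have hle : (T : Subgroup Γ) ≤ N := Subgroup.le_normalizer
  have hodd : ¬ 2 ∣ H.index := by
    intro h2
    apply T.not_dvd_index
    rw [← Subgroup.relIndex_mul_index hle]
    exact Dvd.dvd.mul_right h2 _
  have hp := (IsPGroup.iff_orderOf.1 T.isPGroup')
  have hψx : ψ ⟨x, hxT⟩ ≠ 1 := by
    intro h
    apply hxK
    have := (QuotientGroup.eq_one_iff _).1 h
    exact Subgroup.mem_subgroupOf.1 this
  have hb : b ≠ 1 := by
    rintro rfl
    rw [map_one] at hb2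
    obtain ⟨k, hk⟩ := hp ⟨x, hxT⟩
    have h2 : ψ ⟨x, hxT⟩ ^ (2 ^ k) = 1 := by
      rw [← map_pow, ← hk, pow_orderOf_eq_one, map_one]
    apply hψx
    have hd1 := orderOf_dvd_of_pow_eq_one hb2.symm
    have hd2 := orderOf_dvd_of_pow_eq_one h2
    have hc : Nat.Coprime H.index (2 ^ k) :=
      Nat.Coprime.pow_right _ ((Nat.coprime_comm.1 ((Nat.Prime.coprime_iff_not_dvd Nat.prime_two).2 hodd)))
    have := Nat.dvd_gcd hd1 hd2
    rw [hc] at this
    exact orderOf_eq_one_iff.1 (Nat.dvd_one.1 this)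
  obtain ⟨k, hk⟩ := hp b
  have hk0 : k ≠ 0 := by
    rintro rfl
    apply hb
    rw [pow_zero] at hk
    exact orderOf_eq_one_iff.1 hk
  refine ⟨((b ^ (orderOf b / 2) : (T : Subgroup Γ)) : Γ), Subtype.property _, ?_, ?_⟩
  · rw [Subgroup.orderOf_coe]
    refine orderOf_pow_orderOf_div (by rw [hk]; positivity) ?_
    rw [hk]
    exact dvd_pow_self 2 hk0
  · intro n hn
    have h1 : (n : Γ) * (b : Γ) * n⁻¹ = b := congrArg Subtype.val (hb1 ⟨n, hn⟩)
    simp only [Subgroup.coe_pow]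
    rw [← conj_pow, h1]

end Cfsg.Agent.Lib.JR.ZAux
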