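import Mathlib
import Cfsg.Agent.Lib.ZStar.Main
import Cfsg.Agent.Lib.Involutions2.KleinSylow
import Cfsg.Agent.Lib.JR.ZAux

/-! # S3206, part Z: abelian Sylow `2`-subgroups and normal subgroups of `2`-power index. -/

set_option autoImplicit false

namespace Cfsg.Agent.Lib.JR.Z

open Cfsg Subgroup

universe u

variable {Γ : Type u} [Group Γ] [Finite Γ]

/-- [Z1] An involution of an abelian Sylow `T` fixed by `N(T)` is isolated. If `z = g f g⁻¹` commutes with `f`, then `⟨f, z⟩` lies in a Sylow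
`P = h T h⁻¹`; `h⁻¹ f h, h⁻¹ z h ∈ T` are conjugate to `f`, so by Burnside's lemma (`KleinSylow.exists_normalizer_conj`) equal to `f`: `z = f`. -/
theorem isolated_of_fixed (T : Sylow 2 Γ) (hab : ∀ x ∈ (T : Subgroup Γ), ∀ y ∈ (T : Subgroup Γ), x * y = y * x) {f : Γ}
    (hfT : f ∈ (T : Subgroup Γ)) (hf : orderOf f = 2)
    (hM : ∀ n ∈ normalizer ((T : Subgroup Γ) : Set Γ), n * f * n⁻¹ = f) : Cfsg.IsIsolatedInvolution f :=
  Cfsg.Agent.Lib.JR.ZAux.isolated_of_fixed' T hab hfT hf hM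

/-- [Z2] If `T ≰ K` and `Γ/K` is abelian, then `T` has an involution fixed by `N(T)`. Take `x ∈ T \ K`, `O` its `N(T)`-orbit, `|O|` odd (divides `|N(T) : T|`). `f₀ = ∏ O` is `N(T)`-fixed and
`f₀ x^{-|O|} = ∏_{z ∈ O} z x⁻¹ ∈ K` (`z x⁻¹ = [m, x]`). `x^{|O|} ∉ K` since `x` has `2`-power order and `|O|` is odd. So `f₀ ≠ 1`; take `f` a power of `f₀` of order `2`. -/
theorem exists_fixed (T : Sylow 2 Γ) (hab : ∀ x ∈ (T : Subgroup Γ), ∀ y ∈ (T : Subgroup Γ), x * y = y * x)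
    (K : Subgroup Γ) [K.Normal] (hcomm : ∀ a b : Γ, a * b * a⁻¹ * b⁻¹ ∈ K) (hT : ¬ (T : Subgroup Γ) ≤ K) :
    ∃ f ∈ (T : Subgroup Γ), orderOf f = 2 ∧ ∀ n ∈ normalizer ((T : Subgroup Γ) : Set Γ), n * f * n⁻¹ = f :=
  Cfsg.Agent.Lib.JR.ZAux.exists_fixed' T hab K hcomm hT

/-- [Z3] `O(Γ) = 1` when `K ⊴ Γ` is simple of even order with `C_Γ(K) = 1`: `O ⊓ K` is normal in `K`, so trivial (`K` is not of odd order); so `[O, K] = 1`, `O = 1`. -/
theorem core_bot (K : Subgroup Γ) [K.Normal] [IsSimpleGroup K] (h2 : 2 ∣ Nat.card K)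
    (hc : ∀ x : Γ, (∀ k ∈ K, x * k = k * x) → x = 1) : pPrimeCore 2 Γ = ⊥ := by
  rw [pPrimeCore, sSup_eq_bot]
  rintro N ⟨hN, hNc⟩
  have hNo : (Nat.card N).Coprime 2 := hNc
  have hsub : (N.subgroupOf K).Normal := inferInstance
  have hcases := hsub.eq_bot_or_eq_top
  have hKN : N ⊓ K = ⊥ := by
    rcases hcases with h | h
    · rw [eq_bot_iff]
      rintro x ⟨hx1, hx2⟩
      have : (⟨x, hx2⟩ : K) ∈ N.subgroupOf K := by
        simpa [Subgroup.mem_subgroupOf] using hx1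
      rw [h, Subgroup.mem_bot] at this
      simpa using congrArg Subtype.val this
    · exfalso
      have hle : K ≤ N := by
        intro x hx
        have : (⟨x, hx⟩ : K) ∈ N.subgroupOf K := by rw [h]; trivial
        simpa [Subgroup.mem_subgroupOf] using this
      have h3 : Nat.card K ∣ Nat.card N := Subgroup.card_dvd_of_le hle
      have h4 : 2 ∣ Nat.card N := h2.trans h3
      have h5 := Nat.Coprime.eq_one_of_dvd hNo.symm h4
      omega
  rw [eq_bot_iff]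
  intro x hx
  rw [Subgroup.mem_bot]
  apply hc
  intro k hk
  have h1 : x * k * x⁻¹ * k⁻¹ ∈ N ⊓ K := by
    refine ⟨?_, ?_⟩
    · have h2' : k * x⁻¹ * k⁻¹ ∈ N := hN.conj_mem _ (N.inv_mem hx) k
      have e : x * k * x⁻¹ * k⁻¹ = x * (k * x⁻¹ * k⁻¹) := by group
      rw [e]
      exact N.mul_mem hx h2'
    · have h2' : x * k * x⁻¹ ∈ K := ‹K.Normal›.conj_mem _ hk x
      exact K.mul_mem h2' (K.inv_mem hk)
  rw [hKN, Subgroup.mem_bot] at h1
  have h2' : x * k * x⁻¹ = k := by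
    have := eq_inv_of_mul_eq_one_left h1
    simpa using this
  calc x * k = x * k * x⁻¹ * x := by group
    _ = k * x := by rw [h2']

/-- [Z4] Main lemma. `Γ = K T` gives `Γ/K` abelian; if `T ≰ K`, [Z2] + [Z1] + `Lib.ZStar.Main.zstar` + `hcore`: `f` central in `Γ`, so `f = 1` by `hc`, contradiction. -/
theorem sylow_le (T : Sylow 2 Γ) (hab : ∀ x ∈ (T : Subgroup Γ), ∀ y ∈ (T : Subgroup Γ), x * y = y * x)
    (K : Subgroup Γ) [K.Normal] (hKT : K ⊔ (T : Subgroup Γ) = ⊤)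
    (hc : ∀ x : Γ, (∀ k ∈ K, x * k = k * x) → x = 1) (hcore : pPrimeCore 2 Γ = ⊥) : (T : Subgroup Γ) ≤ K := by
  by_contra hT
  have hdec : ∀ a : Γ, ∃ k ∈ K, ∃ t ∈ (T : Subgroup Γ), a = k * t := by
    intro a
    have ha : a ∈ ((K ⊔ (T : Subgroup Γ) : Subgroup Γ) : Set Γ) := by
      rw [hKT]
      trivial
    rw [Subgroup.normal_mul] at ha
    obtain ⟨k, hk, t, ht, rfl⟩ := Set.mem_mul.mp ha
    exact ⟨k, hk, t, ht, rfl⟩
  have hcomm : ∀ a b : Γ, a * b * a⁻¹ * b⁻¹ ∈ K := by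
    intro a b
    obtain ⟨k₁, hk₁, t₁, ht₁, rfl⟩ := hdec a
    obtain ⟨k₂, hk₂, t₂, ht₂, rfl⟩ := hdec b
    rw [← QuotientGroup.eq_one_iff]
    have h1 : ((k₁ : Γ) : Γ ⧸ K) = 1 := (QuotientGroup.eq_one_iff _).2 hk₁
    have h2 : ((k₂ : Γ) : Γ ⧸ K) = 1 := (QuotientGroup.eq_one_iff _).2 hk₂
    have h3 : ((t₁ * t₂ : Γ) : Γ ⧸ K) = ((t₂ * t₁ : Γ) : Γ ⧸ K) := by rw [hab _ ht₁ _ ht₂]
    simp only [QuotientGroup.mk_mul, QuotientGroup.mk_inv, h1, h2, one_mul, mul_inv_rev, inv_one, mul_one] at h3 ⊢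
    rw [h3]
    group
  obtain ⟨f, hfT, hf, hM⟩ := exists_fixed T hab K hcomm hT
  have hiso := isolated_of_fixed T hab hfT hf hM
  have hz := Cfsg.Agent.Lib.ZStar.Main.zstar Γ f hiso
  have hf1 : f = 1 := by
    apply hc
    intro k _
    have h1 := hz k
    rw [hcore, Subgroup.mem_bot] at h1
    have h2 : f * k * f⁻¹ = k := by
      have := eq_inv_of_mul_eq_one_left h1
      simpa using this
    calc f * k = f * k * f⁻¹ * f := by group
      _ = k * f := by rw [h2]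
  rw [hf1, orderOf_one] at hf
  omega

end Cfsg.Agent.Lib.JR.Z
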