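import Mathlib
import Cfsg.Agent.Lib.JR.Z
import Cfsg.Agent.Lib.ZStar.AbelianSylow

/-! # S3206, part Seven. -/

set_option autoImplicit false
set_option linter.unusedSectionVars false
set_option linter.style.haveILetI false

namespace Cfsg.Agent.Lib.JR.Seven

open Cfsg Subgroup

universe u

variable {G : Type u} [Group G] [Finite G]

/-- The nontrivial elements of a subgroup. -/
abbrev Pts (S : Subgroup G) : Type u := {s : G // s ∈ S ∧ s ≠ 1}

/-- The conjugation action of the normalizer on the nontrivial elements. -/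
@[reducible] def ptsAct (S : Subgroup G) :
    MulAction (normalizer (S : Set G)) (Pts S) where
  smul n s := ⟨(n : G) * s.1 * (n : G)⁻¹, (Subgroup.mem_normalizer_iff.mp n.2 s.1).mp s.2.1, by
    intro h
    apply s.2.2
    have h2 : (n : G) * s.1 * (n : G)⁻¹ * (n : G) = 1 * (n : G) := congrArg (· * (n : G)) h
    simpa using h2⟩
  one_smul s := by
    apply Subtype.ext
    show (((1 : normalizer (S : Set G)) : G)) * s.1 * ((1 : normalizer (S : Set G)) : G)⁻¹ = s.1
    simp
  mul_smul a b s := by
    apply Subtype.ext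
    show ((a * b : normalizer (S : Set G)) : G) * s.1 * ((a * b : normalizer (S : Set G)) : G)⁻¹
      = (a : G) * ((b : G) * s.1 * (b : G)⁻¹) * (a : G)⁻¹
    simp [mul_assoc]

/-- A group action on seven points whose orbits are all of odd size different from one is transitive. -/
theorem transitive_of_odd_orbits {K X : Type*} [Group K] [MulAction K X] [Finite X]
    (hX : Nat.card X = 7) (hodd : ∀ x : X, Odd (MulAction.orbit K x).ncard)
    (hne : ∀ x : X, (MulAction.orbit K x).ncard ≠ 1) (x y : X) : y ∈ MulAction.orbit K x := by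
  classical
  have h3 : ∀ x : X, 3 ≤ (MulAction.orbit K x).ncard := by
    intro x
    obtain ⟨k, hk⟩ := hodd x
    have := hne x
    omega
  have hdisj : ∀ a b : X, b ∉ MulAction.orbit K a →
      Disjoint (MulAction.orbit K a) (MulAction.orbit K b) := by
    intro a b hb
    rcases MulAction.orbit.eq_or_disjoint (G := K) a b with h | h
    · exact absurd (h ▸ MulAction.mem_orbit_self b) hb
    · exact h
  by_contra hxy
  have hd1 := hdisj x y hxy
  have huniv : ((Set.univ : Set X)).ncard = 7 := by rw [Set.ncard_univ, hX]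
  have hfin : ∀ s : Set X, s.Finite := fun s => Set.toFinite s
  have hsum : ((MulAction.orbit K x) ∪ (MulAction.orbit K y)).ncard
      = (MulAction.orbit K x).ncard + (MulAction.orbit K y).ncard :=
    Set.ncard_union_eq hd1 (hfin _) (hfin _)
  have hle : ((MulAction.orbit K x) ∪ (MulAction.orbit K y)).ncard ≤ 7 := by
    rw [← huniv]; exact Set.ncard_le_ncard (Set.subset_univ _) (hfin _)
  obtain ⟨a, ha⟩ := hodd x
  obtain ⟨b, hb⟩ := hodd y
  have hne7 : ((MulAction.orbit K x) ∪ (MulAction.orbit K y)).ncard ≠ 7 := by omega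
  have hex : ∃ z : X, z ∉ (MulAction.orbit K x) ∪ (MulAction.orbit K y) := by
    by_contra hall
    push Not at hall
    have : (MulAction.orbit K x) ∪ (MulAction.orbit K y) = Set.univ := Set.eq_univ_of_forall hall
    rw [this, huniv] at hne7
    exact hne7 rfl
  obtain ⟨z, hz⟩ := hex
  have hzx : z ∉ MulAction.orbit K x := fun h => hz (Or.inl h)
  have hzy : z ∉ MulAction.orbit K y := fun h => hz (Or.inr h)
  have hd2 : Disjoint ((MulAction.orbit K x) ∪ (MulAction.orbit K y)) (MulAction.orbit K z) := by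
    rw [Set.disjoint_union_left]
    exact ⟨hdisj x z hzx, hdisj y z hzy⟩
  have hsum2 := Set.ncard_union_eq hd2 (hfin _) (hfin _)
  have hle2 : (((MulAction.orbit K x) ∪ (MulAction.orbit K y)) ∪ (MulAction.orbit K z)).ncard ≤ 7 := by
    rw [← huniv]; exact Set.ncard_le_ncard (Set.subset_univ _) (hfin _)
  have := h3 x
  have := h3 y
  have := h3 z
  omega

/-- The core of [S2]: if `N(S)` fixes no nontrivial element of `S`, we get the `7`-cycle. -/
theorem seven_of_no_fixed (S : Sylow 2 G) (h8 : Nat.card S = 8)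
    (hab : ∀ x ∈ (S : Subgroup G), ∀ y ∈ (S : Subgroup G), x * y = y * x)
    (hnf : ∀ f ∈ (S : Subgroup G), f ≠ 1 → ∃ n ∈ normalizer ((S : Subgroup G) : Set G), n * f * n⁻¹ ≠ f) :
    ∃ y ∈ normalizer ((S : Subgroup G) : Set G), (∀ s ∈ (S : Subgroup G), y ^ 7 * s * (y ^ 7)⁻¹ = s) ∧
      ∀ s ∈ (S : Subgroup G), s ≠ 1 → ∀ s' ∈ (S : Subgroup G), s' ≠ 1 → ∃ i : ℕ, y ^ i * s * (y ^ i)⁻¹ = s' := by
  classical
  haveI : Fact (Nat.Prime 2) := ⟨Nat.prime_two⟩
  haveI : Fact (Nat.Prime 7) := ⟨by norm_num⟩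
  letI act := ptsAct (S : Subgroup G)
  have hsmul : ∀ (n : (normalizer ((S : Subgroup G) : Set G))) (s : (Pts (S : Subgroup G))), ((n • s : (Pts (S : Subgroup G))) : G) = (n : G) * (s : G) * (n : G)⁻¹ := fun _ _ => rfl
  have hcardX : Nat.card (Pts (S : Subgroup G)) = 7 := by
    have h1 : ({s : G | s ∈ (S : Subgroup G) ∧ s ≠ 1}) = ((S : Subgroup G) : Set G) \ {1} := by
      ext x
      constructor
      · rintro ⟨h1, h2⟩
        exact ⟨h1, h2⟩
      · rintro ⟨h1, h2⟩
        exact ⟨h1, h2⟩
    have h2 : Nat.card (Pts (S : Subgroup G)) = ({s : G | s ∈ (S : Subgroup G) ∧ s ≠ 1}).ncard :=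
      Nat.card_coe_set_eq _
    have h3 : (((S : Subgroup G) : Set G)).ncard = Nat.card (S : Subgroup G) :=
      (Nat.card_coe_set_eq _).symm
    rw [h2, h1, Set.ncard_sdiff_singleton_of_mem (one_mem (S : Subgroup G)), h3]
    have : Nat.card (S : Subgroup G) = 8 := h8
    rw [this]
  have hSN : (S : Subgroup G) ≤ (normalizer ((S : Subgroup G) : Set G)) := Subgroup.le_normalizer
  have hodd : ∀ x : (Pts (S : Subgroup G)), Odd (MulAction.orbit (normalizer ((S : Subgroup G) : Set G)) x).ncard := by
    intro x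
    rw [← MulAction.index_stabilizer]
    set St := MulAction.stabilizer (normalizer ((S : Subgroup G) : Set G)) x with hSt
    have h1 : St.index * Nat.card St = Nat.card (normalizer ((S : Subgroup G) : Set G)) := Subgroup.index_mul_card St
    have h2 : (S : Subgroup G).subgroupOf (normalizer ((S : Subgroup G) : Set G)) ≤ St := by
      intro a ha
      rw [Subgroup.mem_subgroupOf] at ha
      rw [hSt, MulAction.mem_stabilizer_iff]
      apply Subtype.ext
      rw [hsmul]
      rw [hab _ ha _ x.2.1]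
      simp
    have h3 : Nat.card ((S : Subgroup G).subgroupOf (normalizer ((S : Subgroup G) : Set G))) = 8 := by
      rw [Nat.card_congr (Subgroup.subgroupOfEquivOfLe hSN).toEquiv]
      exact h8
    have h4 : 8 ∣ Nat.card St := by
      rw [← h3]; exact Subgroup.card_dvd_of_le h2
    have h5 : Nat.card (normalizer ((S : Subgroup G) : Set G)) ∣ Nat.card G := Subgroup.card_subgroup_dvd_card _
    have h6 : (S : Subgroup G).index * Nat.card (S : Subgroup G) = Nat.card G :=
      Subgroup.index_mul_card _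
    have h8' : Nat.card (S : Subgroup G) = 8 := h8
    rw [h8'] at h6
    have h7 : ¬ 2 ∣ (S : Subgroup G).index := S.not_dvd_index
    obtain ⟨a, ha⟩ := h4
    obtain ⟨b, hb⟩ := h5
    have h8 : St.index * a * b * 8 = (S : Subgroup G).index * 8 := by
      rw [h6, hb, ← h1, ha]; ring
    have h9 : St.index * a * b = (S : Subgroup G).index := Nat.eq_of_mul_eq_mul_right (by norm_num) h8
    rw [← Nat.not_even_iff_odd, even_iff_two_dvd]
    intro h10
    apply h7
    rw [← h9]
    exact dvd_trans h10 (dvd_trans (dvd_mul_right _ _) (dvd_mul_right _ _))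
  have hne : ∀ x : (Pts (S : Subgroup G)), (MulAction.orbit (normalizer ((S : Subgroup G) : Set G)) x).ncard ≠ 1 := by
    intro x hx
    rw [Set.ncard_eq_one] at hx
    obtain ⟨c, hc⟩ := hx
    have hcx : ∀ y ∈ MulAction.orbit (normalizer ((S : Subgroup G) : Set G)) x, y = c := by
      intro y hy
      rw [hc] at hy
      exact hy
    have hxc := hcx x (MulAction.mem_orbit_self x)
    obtain ⟨n, hn, hnn⟩ := hnf x.1 x.2.1 x.2.2
    apply hnn
    have h := hcx ((⟨n, hn⟩ : (normalizer ((S : Subgroup G) : Set G))) • x) (MulAction.mem_orbit _ _)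
    rw [← hxc] at h
    have := congrArg Subtype.val h
    rwa [hsmul] at this
  have htrans := transitive_of_odd_orbits (K := ↥(normalizer ((S : Subgroup G) : Set G))) hcardX hodd hne
  haveI : Fintype (Pts (S : Subgroup G)) := Fintype.ofFinite (Pts (S : Subgroup G))
  -- the permutation representation
  let φ : (normalizer ((S : Subgroup G) : Set G)) →* Equiv.Perm (Pts (S : Subgroup G)) := MulAction.toPermHom (normalizer ((S : Subgroup G) : Set G)) (Pts (S : Subgroup G))
  have hφ : ∀ (n : (normalizer ((S : Subgroup G) : Set G))) (s : (Pts (S : Subgroup G))), ((φ n s : (Pts (S : Subgroup G))) : G) = (n : G) * (s : G) * (n : G)⁻¹ := fun _ _ => rfl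
  have hne0 : Nonempty (Pts (S : Subgroup G)) := (Nat.card_pos_iff.mp (by rw [hcardX]; norm_num)).1
  obtain ⟨x₀⟩ := hne0
  -- `7` divides the order of the image
  have h7R : 7 ∣ Nat.card φ.range := by
    have hact : ∀ y : (Pts (S : Subgroup G)), ∃ r : φ.range, (r : Equiv.Perm (Pts (S : Subgroup G))) x₀ = y := by
      intro y
      obtain ⟨n, hn⟩ := htrans x₀ y
      exact ⟨⟨φ n, n, rfl⟩, hn⟩
    have hsurj : Function.Surjective (fun r : φ.range => (r : Equiv.Perm (Pts (S : Subgroup G))) x₀) := hact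
    letI : MulAction φ.range (Pts (S : Subgroup G)) :=
      { smul := fun r s => (r : Equiv.Perm (Pts (S : Subgroup G))) s
        one_smul := fun _ => rfl
        mul_smul := fun _ _ _ => rfl }
    have horb : MulAction.orbit φ.range x₀ = Set.univ := by
      apply Set.eq_univ_of_forall
      intro y
      obtain ⟨r, hr⟩ := hact y
      exact ⟨r, hr⟩
    have h1 := MulAction.index_stabilizer φ.range x₀
    rw [horb, Set.ncard_univ, hcardX] at h1
    rw [← h1]
    exact Subgroup.index_dvd_card _
  obtain ⟨σ, hσ⟩ := exists_prime_orderOf_dvd_card' (G := φ.range) 7 h7R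
  obtain ⟨y, hy⟩ := σ.2
  have hordσ : orderOf (σ : Equiv.Perm (Pts (S : Subgroup G))) = 7 := by
    rw [Subgroup.orderOf_coe]; exact hσ
  have hyφ : φ y = (σ : Equiv.Perm (Pts (S : Subgroup G))) := hy
  have hcyc : (σ : Equiv.Perm (Pts (S : Subgroup G))).IsCycle := by
    apply Equiv.Perm.isCycle_of_prime_order
    · rw [hordσ]; norm_num
    · rw [hordσ]
      have h1 : (σ : Equiv.Perm (Pts (S : Subgroup G))).support.card ≤ Fintype.card (Pts (S : Subgroup G)) := Finset.card_le_univ _
      rw [← Nat.card_eq_fintype_card, hcardX] at h1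
      omega
  have hsupp : (σ : Equiv.Perm (Pts (S : Subgroup G))).support.card = 7 := by
    rw [← hcyc.orderOf, hordσ]
  have hall : ∀ z : (Pts (S : Subgroup G)), (σ : Equiv.Perm (Pts (S : Subgroup G))) z ≠ z := by
    intro z
    have h1 : (σ : Equiv.Perm (Pts (S : Subgroup G))).support = Finset.univ := by
      apply Finset.eq_univ_of_card
      rw [hsupp, ← Nat.card_eq_fintype_card, hcardX]
    have h2 : z ∈ (σ : Equiv.Perm (Pts (S : Subgroup G))).support := by rw [h1]; exact Finset.mem_univ z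
    exact Equiv.Perm.mem_support.mp h2
  refine ⟨y, y.2, ?_, ?_⟩
  · intro s hs
    by_cases hs1 : s = 1
    · subst hs1; simp
    have h1 : (φ (y ^ 7)) = 1 := by
      rw [map_pow, hyφ, ← hordσ, pow_orderOf_eq_one]
    have h2 := hφ (y ^ 7) ⟨s, hs, hs1⟩
    rw [h1] at h2
    simpa using h2.symm
  · intro s hs hs1 s' hs' hs1'
    obtain ⟨i, hi⟩ := hcyc.exists_pow_eq (x := (⟨s, hs, hs1⟩ : (Pts (S : Subgroup G)))) (y := (⟨s', hs', hs1'⟩ : (Pts (S : Subgroup G)))) (hall _) (hall _)
    refine ⟨i, ?_⟩
    have h2 := hφ (y ^ i) ⟨s, hs, hs1⟩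
    rw [map_pow, hyφ, hi] at h2
    simpa using h2.symm

/-- [S1] `N(S)` fixes no involution of `S`: such `f` is isolated (`Z.isolated_of_fixed`), so central mod `O(G) = 1` (`zstar`, `G` simple of even order), contradiction with simple non-abelian. -/
theorem no_fixed [IsSimpleGroup G] (hG : ¬ IsMulCommutative G) (S : Sylow 2 G)
    (hab : ∀ x ∈ (S : Subgroup G), ∀ y ∈ (S : Subgroup G), x * y = y * x) {f : G} (hfS : f ∈ (S : Subgroup G)) (hf : orderOf f = 2) :
    ∃ n ∈ normalizer ((S : Subgroup G) : Set G), n * f * n⁻¹ ≠ f := by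
  by_contra hcon
  push Not at hcon
  have hZ : center G = ⊥ := by
    rcases IsSimpleGroup.eq_bot_or_eq_top_of_normal (center G) inferInstance with h | h
    · exact h
    · exfalso
      apply hG
      refine ⟨⟨fun a b => ?_⟩⟩
      have ha : a ∈ center G := by rw [h]; trivial
      exact (Subgroup.mem_center_iff.mp ha b).symm
  have hcore : pPrimeCore 2 G = ⊥ := by
    unfold pPrimeCore
    rw [sSup_eq_bot]
    rintro N ⟨hN, hc⟩
    rcases hN.eq_bot_or_eq_top with h | h
    · exact h
    · exfalso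
      rw [h, Subgroup.card_top] at hc
      have h1 : 2 ∣ Nat.card G := hf ▸ orderOf_dvd_natCard f
      have := Nat.dvd_gcd h1 (dvd_refl 2)
      rw [Nat.Coprime.gcd_eq_one hc] at this
      omega
  have hab' : IsMulCommutative (S : Subgroup G) := ⟨⟨fun a b => Subtype.ext (hab _ a.2 _ b.2)⟩⟩
  have h1 := Cfsg.Agent.Lib.ZStar.AbelianSylow.eq_one_of_fixed hZ hcore S hab' hfS hcon
  rw [h1, orderOf_one] at hf
  omega

/-- [S2] `|S| = 8`, exponent `2`: some `y ∈ N(S)` acts on `S \ {1}` as a `7`-cycle (and `y⁷` acts trivially).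
`N(S)` orbits on the `7` involutions of `S` have odd size (`S` acts trivially, `|N(S):S|` odd) `≠ 1` ([S1]), so there is only one orbit (3 + 3 + 1 is excluded). So `7` divides the order of the image of `N(S)` in `Perm (S \ {1})`;
by Cauchy an element of order `7` there is a `7`-cycle (a fixed point would force all `6` others fixed); lift it to `y`. -/
theorem exists_seven [IsSimpleGroup G] (hG : ¬ IsMulCommutative G) (S : Sylow 2 G) (h8 : Nat.card S = 8)
    (he : ∀ s ∈ (S : Subgroup G), s * s = 1) :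
    ∃ y ∈ normalizer ((S : Subgroup G) : Set G), (∀ s ∈ (S : Subgroup G), y ^ 7 * s * (y ^ 7)⁻¹ = s) ∧
      ∀ s ∈ (S : Subgroup G), s ≠ 1 → ∀ s' ∈ (S : Subgroup G), s' ≠ 1 → ∃ i : ℕ, y ^ i * s * (y ^ i)⁻¹ = s' := by
  have hab : ∀ x ∈ (S : Subgroup G), ∀ y ∈ (S : Subgroup G), x * y = y * x := by
    intro x hx y hy
    have h := he (x * y) (mul_mem hx hy)
    have h1 : x⁻¹ = x := inv_eq_of_mul_eq_one_left (he x hx)
    have h2 : y⁻¹ = y := inv_eq_of_mul_eq_one_left (he y hy)
    have h3 : x * y = (x * y)⁻¹ := eq_inv_of_mul_eq_one_left h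
    rw [h3, mul_inv_rev, h1, h2]
  refine seven_of_no_fixed S h8 hab ?_
  intro f hf hf1
  refine no_fixed hG S hab hf ?_
  exact orderOf_eq_prime (by rw [pow_two]; exact he f hf) hf1

end Cfsg.Agent.Lib.JR.Seven
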