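import Mathlib
import Cfsg.Agent.Lib.JR.Seven
import Cfsg.Agent.Lib.JR.Form

/-! # S3206, part Ext: no perfect central extension by a `2`-group. -/

set_option autoImplicit false

namespace Cfsg.Agent.Lib.JR.Ext

open Cfsg Subgroup

universe u v

open scoped IsMulCommutative in
/-- [E1] `Ŝ = π⁻¹ S` is abelian: the commutator `c(a,b) = a b a⁻¹ b⁻¹` of `Ŝ` is central, depends only on the images in `S`, biadditive, alternating, invariant under a lift `ŷ` of `y`: `Form.form_zero`. -/
theorem lift_abelian {G : Type u} [Group G] [Finite G] (S : Sylow 2 G) (h8 : Nat.card S = 8)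
    (he : ∀ s ∈ (S : Subgroup G), s * s = 1) (hc : ∀ x ∈ (S : Subgroup G), ∀ z ∈ (S : Subgroup G), x * z = z * x)
    {y : G} (hyN : y ∈ normalizer ((S : Subgroup G) : Set G)) (hy7 : ∀ s ∈ (S : Subgroup G), y ^ 7 * s * (y ^ 7)⁻¹ = s)
    (hyt : ∀ s ∈ (S : Subgroup G), s ≠ 1 → ∀ s' ∈ (S : Subgroup G), s' ≠ 1 → ∃ i : ℕ, y ^ i * s * (y ^ i)⁻¹ = s')
    {L : Type v} [Group L] (π : L →* G) (hπ : Function.Surjective π) (hk : π.ker ≤ center L)
    {a b : L} (ha : π a ∈ (S : Subgroup G)) (hb : π b ∈ (S : Subgroup G)) : a * b = b * a := by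
  classical
  let iS : CommGroup ↥(S : Subgroup G) :=
    { (inferInstance : Group ↥(S : Subgroup G)) with mul_comm := fun u v => Subtype.ext (hc u u.2 v v.2) }
  choose sec hsec using hπ
  -- central elements
  have hcen : ∀ {x : L}, π x = 1 → ∀ w : L, x * w = w * x := by
    intro x hx w
    have h1 : x ∈ center L := hk hx
    exact (Subgroup.mem_center_iff.1 h1 w).symm
  have hconj : ∀ {x : L}, π x = 1 → ∀ w : L, x * w * x⁻¹ = w := by
    intro x hx w
    rw [hcen hx w, mul_inv_cancel_right]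
  -- the commutator
  let C : L → L → L := fun p q => p * q * p⁻¹ * q⁻¹
  have hC : ∀ {p q : L}, π p ∈ (S : Subgroup G) → π q ∈ (S : Subgroup G) → π (C p q) = 1 := by
    intro p q hp hq
    have h1 := hc _ hp _ hq
    simp only [C, map_mul, map_inv]
    rw [h1]
    group
  -- independence of the lifts
  have hind : ∀ {p q p' q' : L}, π p = π p' → π q = π q' → C p q = C p' q' := by
    intro p q p' q' h1 h2
    obtain ⟨m, hm⟩ : ∃ m, p = p' * m := ⟨p'⁻¹ * p, by group⟩
    obtain ⟨n, hn⟩ : ∃ n, q = q' * n := ⟨q'⁻¹ * q, by group⟩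
    have hm1 : π m = 1 := by
      rw [hm, map_mul] at h1
      simpa using h1
    have hn1 : π n = 1 := by
      rw [hn, map_mul] at h2
      simpa using h2
    subst hm hn
    simp only [C]
    calc p' * m * (q' * n) * (p' * m)⁻¹ * (q' * n)⁻¹
        = p' * (m * (q' * n) * m⁻¹) * p'⁻¹ * (q' * n)⁻¹ := by group
      _ = p' * (q' * n) * p'⁻¹ * (q' * n)⁻¹ := by rw [hconj hm1]
      _ = p' * q' * (n * p'⁻¹ * n⁻¹) * q'⁻¹ := by group
      _ = p' * q' * p'⁻¹ * q'⁻¹ := by rw [hconj hn1]
  let A := ↥(center L)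
  have hCS : ∀ u v : ↥(S : Subgroup G), C (sec u) (sec v) ∈ center L := fun u v =>
    hk (hC (by rw [hsec]; exact u.2) (by rw [hsec]; exact v.2))
  let c : ↥(S : Subgroup G) → ↥(S : Subgroup G) → ↥(center L) := fun u v => ⟨C (sec u) (sec v), hCS u v⟩
  have hsecS : ∀ u : ↥(S : Subgroup G), π (sec u) ∈ (S : Subgroup G) := fun u => by rw [hsec]; exact u.2
  have hadd1 : ∀ u v w, c (u * v) w = c u w * c v w := by
    intro u v w
    apply Subtype.ext
    change C (sec ((u * v : ↥(S : Subgroup G)) : G)) (sec w) = C (sec u) (sec w) * C (sec v) (sec w)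
    have h1 : C (sec ((u * v : ↥(S : Subgroup G)) : G)) (sec w) = C (sec u * sec v) (sec w) := by
      apply hind
      · rw [hsec, map_mul, hsec, hsec]; rfl
      · rfl
    rw [h1]
    have hx : π (C (sec v) (sec w)) = 1 := hC (hsecS v) (hsecS w)
    have e : C (sec u * sec v) (sec w) = sec u * C (sec v) (sec w) * (sec w * (sec u)⁻¹ * (sec w)⁻¹) := by
      simp only [C]; group
    rw [e, ← hcen hx (sec u), mul_assoc]
    have e2 : sec u * (sec w * (sec u)⁻¹ * (sec w)⁻¹) = C (sec u) (sec w) := by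
      simp only [C]; group
    rw [e2]
    exact hcen hx _
  have hadd2 : ∀ u v w, c w (u * v) = c w u * c w v := by
    intro u v w
    apply Subtype.ext
    change C (sec w) (sec ((u * v : ↥(S : Subgroup G)) : G)) = C (sec w) (sec u) * C (sec w) (sec v)
    have h1 : C (sec w) (sec ((u * v : ↥(S : Subgroup G)) : G)) = C (sec w) (sec u * sec v) := by
      apply hind
      · rfl
      · rw [hsec, map_mul, hsec, hsec]; rfl
    rw [h1]
    have hx : π (C (sec w) (sec v)) = 1 := hC (hsecS w) (hsecS v)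
    have e : C (sec w) (sec u * sec v) = C (sec w) (sec u) * (sec u * C (sec w) (sec v) * (sec u)⁻¹) := by
      simp only [C]; group
    have hz : sec u * C (sec w) (sec v) * (sec u)⁻¹ = C (sec w) (sec v) := by
      rw [← hcen hx (sec u), mul_inv_cancel_right]
    rw [e, hz]
  have hself : ∀ u, c u u = 1 := by
    intro u
    apply Subtype.ext
    change C (sec u) (sec u) = 1
    simp only [C]; group
  -- the automorphism
  let yy : ↥(S : Subgroup G) →* ↥(S : Subgroup G) :=
    { toFun := fun u => ⟨y * u * y⁻¹, (Subgroup.mem_normalizer_iff.1 hyN u).1 u.2⟩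
      map_one' := by
        apply Subtype.ext
        simp
      map_mul' := by
        intro u v
        apply Subtype.ext
        simp only [Subgroup.coe_mul]
        group }
  have hyy : ∀ u : ↥(S : Subgroup G), ((yy u : ↥(S : Subgroup G)) : G) = y * u * y⁻¹ := fun u => rfl
  have hpow : ∀ (i : ℕ) (u : ↥(S : Subgroup G)), ((yy^[i] u : ↥(S : Subgroup G)) : G) = y ^ i * u * (y ^ i)⁻¹ := by
    intro i u
    induction i with
    | zero => simp
    | succ i ih =>
      rw [Function.iterate_succ_apply', hyy, ih, pow_succ']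
      group
  have hinv : ∀ u v, c (yy u) (yy v) = c u v := by
    intro u v
    apply Subtype.ext
    change C (sec (yy u)) (sec (yy v)) = C (sec u) (sec v)
    have h1 : C (sec (yy u)) (sec (yy v)) = C (sec y * sec u * (sec y)⁻¹) (sec y * sec v * (sec y)⁻¹) := by
      apply hind
      · rw [hsec, hyy, map_mul, map_mul, map_inv, hsec, hsec]
      · rw [hsec, hyy, map_mul, map_mul, map_inv, hsec, hsec]
    rw [h1]
    have e : C (sec y * sec u * (sec y)⁻¹) (sec y * sec v * (sec y)⁻¹) = sec y * C (sec u) (sec v) * (sec y)⁻¹ := by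
      simp only [C]; group
    have hx : π (C (sec u) (sec v)) = 1 := hC (hsecS u) (hsecS v)
    rw [e, ← hcen hx (sec y), mul_inv_cancel_right]
  have hform := Form.form_zero (S := ↥(S : Subgroup G)) (A := ↥(center L))
    (fun s => Subtype.ext (he s s.2)) h8 yy
    (fun s => Subtype.ext (by rw [hpow]; exact hy7 s s.2))
    (fun s s' h1 h2 => by
      obtain ⟨i, hi⟩ := hyt s s.2 (fun h => h1 (Subtype.ext h)) s' s'.2 (fun h => h2 (Subtype.ext h))
      exact ⟨i, Subtype.ext (by rw [hpow]; exact hi)⟩)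
    c hadd1 hadd2 hself hinv
  have h1 := hform ⟨π a, ha⟩ ⟨π b, hb⟩
  have h2 : C (sec (π a)) (sec (π b)) = 1 := congrArg Subtype.val h1
  have h3 : C a b = 1 := by
    rw [← h2]
    exact hind (hsec _).symm (hsec _).symm
  have h4 : a * b * a⁻¹ * b⁻¹ = 1 := h3
  calc a * b = a * b * a⁻¹ * b⁻¹ * (b * a) := by group
    _ = b * a := by rw [h4, one_mul]

open scoped IsMulCommutative in
/-- [E2] Gaschütz/transfer: in a perfect group `L` a central `2`-subgroup `Z` lies in an abelian Sylow... `Ŝ` abelian subgroup of odd index, `Z ≤ Ŝ`, `Z` a `2`-group: `Z = 1`.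
Transfer `V : L → Ŝ` (`MonoidHom.transfer`) is trivial (L perfect), and `V z = z ^ index` for `z` central (`MonoidHom.transfer_center_pow`), `index` odd. -/
theorem central_trivial {L : Type v} [Group L] [Finite L] (hperf : commutator L = ⊤) (X : Subgroup L)
    (hX : ∀ a ∈ X, ∀ b ∈ X, a * b = b * a) (hodd : ¬ 2 ∣ X.index) (Z : Subgroup L) (hZX : Z ≤ X) (hZc : Z ≤ center L)
    (hZ2 : IsPGroup 2 Z) : Z = ⊥ := by
  haveI : IsMulCommutative X := ⟨⟨fun a b => Subtype.ext (hX a a.2 b b.2)⟩⟩
  have hle : commutator L ≤ (MonoidHom.transfer (MonoidHom.id X)).ker := by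
    rw [commutator_def, Subgroup.commutator_le]
    intro a _ b _
    rw [MonoidHom.mem_ker, map_commutatorElement]
    rw [commutatorElement_eq_one_iff_commute]
    exact mul_comm _ _
  rw [eq_bot_iff]
  intro z hz
  have hzc : z ∈ center L := hZc hz
  have hpow := MonoidHom.transfer_eq_pow (MonoidHom.id X) z (fun k g₀ hk => by
    have h1 : z ^ k ∈ center L := pow_mem hzc k
    rw [mul_assoc, (Subgroup.mem_center_iff.1 h1 g₀).symm, inv_mul_cancel_left])
  have h1 : z ∈ (MonoidHom.transfer (MonoidHom.id X)).ker := hle (by rw [hperf]; exact Subgroup.mem_top z)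
  rw [MonoidHom.mem_ker, hpow] at h1
  have h2 : z ^ X.index = 1 := congrArg Subtype.val h1
  have h3 : orderOf z ∣ X.index := orderOf_dvd_of_pow_eq_one h2
  obtain ⟨n, hn⟩ := hZ2 ⟨z, hz⟩
  have hn' : z ^ 2 ^ n = 1 := congrArg Subtype.val hn
  have h4 : orderOf z ∣ 2 ^ n := orderOf_dvd_of_pow_eq_one hn'
  have hcop : Nat.Coprime (2 ^ n) X.index := Nat.Coprime.pow_left n ((Nat.Prime.coprime_iff_not_dvd Nat.prime_two).2 hodd)
  have h5 : orderOf z = 1 := Nat.eq_one_of_dvd_coprimes hcop h4 h3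
  rw [orderOf_eq_one_iff] at h5
  simp [h5]

/-- [E3] Assembly: `π : L → L/Z ≃ G`, `X = π⁻¹ S`: `|L : X| = |G : S|` odd, abelian by [E1], apply [E2]. -/
theorem ext_trivial {G : Type u} [Group G] [Finite G] [IsSimpleGroup G] (hG : ¬ IsMulCommutative G) (S : Sylow 2 G) (h8 : Nat.card S = 8)
    (he : ∀ s ∈ (S : Subgroup G), s * s = 1) (hc : ∀ x ∈ (S : Subgroup G), ∀ z ∈ (S : Subgroup G), x * z = z * x)
    (L : Type) [Group L] [Finite L] (Z : Subgroup L) [Z.Normal] (hperf : commutator L = ⊤) (hZc : Z ≤ center L)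
    (hZ2 : IsPGroup 2 Z) (he' : Nonempty (L ⧸ Z ≃* G)) : Z = ⊥ := by
  obtain ⟨e⟩ := he'
  let π : L →* G := e.toMonoidHom.comp (QuotientGroup.mk' Z)
  have hπ : Function.Surjective π := e.surjective.comp (QuotientGroup.mk'_surjective Z)
  have hker : π.ker = Z := by
    ext x
    rw [MonoidHom.mem_ker]
    change e (x : L ⧸ Z) = 1 ↔ _
    rw [map_eq_one_iff e e.injective]
    exact QuotientGroup.eq_one_iff x
  obtain ⟨y, hyN, hy7, hyt⟩ := Seven.exists_seven hG S h8 he
  have hk : π.ker ≤ center L := by rw [hker]; exact hZc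
  refine central_trivial hperf ((S : Subgroup G).comap π) ?_ ?_ Z ?_ hZc hZ2
  · intro a ha b hb
    exact lift_abelian S h8 he hc hyN hy7 hyt π hπ hk ha hb
  · rw [Subgroup.index_comap_of_surjective _ hπ]
    exact S.not_dvd_index
  · intro z hz
    have : π z = 1 := by
      have hz' : z ∈ π.ker := by rw [hker]; exact hz
      exact hz'
    change π z ∈ (S : Subgroup G)
    rw [this]
    exact one_mem _

end Cfsg.Agent.Lib.JR.Ext
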